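import Cfsg.Agent.H730.OZ.Top
import Cfsg.Agent.H210.Loc.TI

/-!
# S4842 for groups with TI Sylow `p`-subgroups (helper279)

* `sum_sylow_eq_zero` : TI Sylow `p`-subgroups, `|G|_p² ` `p`-elements, the sum of `χ` over them is `- |G|_p χ(1)`:
  the sum of `χ` over a Sylow `p`-subgroup is zero.
* `zero_of_sum` : then `χ` vanishes on every element `s` normalising `P` with `C_P(s) = 1`.
-/

set_option autoImplicit false

namespace Cfsg.Agent.H279.OZ

open Cfsg Cfsg.Agent.Characters Cfsg.Agent.H730.OZ Finset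

universe u

variable {G : Type u} [Group G]

section TI

open scoped Classical in
theorem mem_sylow_iff [Fintype G] {p : ℕ} [hp : Fact p.Prime] (h : H210.Loc.TI p G) {u : G} (hu : u ≠ 1) :
    (univ.filter fun P : Sylow p G => u ∈ (P : Subgroup G)).card = if u ∈ pSet p G then 1 else 0 := by
  split_ifs with h1
  · obtain ⟨k, hk⟩ := h1
    have h2 : IsPGroup p (Subgroup.zpowers u) := IsPGroup.of_card (n := k) (by rw [Nat.card_zpowers, hk])
    obtain ⟨P, hP⟩ := h2.exists_le_sylow
    rw [card_eq_one]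
    refine ⟨P, ?_⟩
    ext Q
    rw [mem_filter, mem_singleton]
    constructor
    · rintro ⟨-, hQ⟩
      by_contra hne
      apply hu
      have h3 : u ∈ (Q : Subgroup G) ⊓ (P : Subgroup G) := ⟨hQ, hP (Subgroup.mem_zpowers u)⟩
      rwa [h Q P hne, Subgroup.mem_bot] at h3
    · rintro rfl
      exact ⟨mem_univ _, hP (Subgroup.mem_zpowers u)⟩
  · rw [card_eq_zero, filter_eq_empty_iff]
    intro P _ hP
    apply h1
    obtain ⟨k, hk⟩ := (IsPGroup.iff_orderOf.1 P.isPGroup') ⟨u, hP⟩
    exact ⟨k, by rw [← hk, Subgroup.orderOf_mk]⟩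

open scoped Classical in
/-- the sum over the `p`-elements -/
theorem sum_pSet [Fintype G] {p : ℕ} [hp : Fact p.Prime] (h : H210.Loc.TI p G) (P : Sylow p G) {f : G → ℂ}
    (hf : ∀ g x : G, f (g * x * g⁻¹) = f x) :
    ∑ u ∈ univ.filter (· ∈ pSet p G), f u =
      f 1 + (Fintype.card (Sylow p G) : ℂ) * ((∑ u ∈ univ.filter (· ∈ (P : Subgroup G)), f u) - f 1) := by
  have h1 : (1 : G) ∈ univ.filter (· ∈ pSet p G) := by
    rw [mem_filter]
    exact ⟨mem_univ _, 0, by simp⟩
  rw [← add_sum_erase _ _ h1]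
  congr 1
  have hQ : ∀ Q : Sylow p G, (∑ u ∈ (univ.filter (· ∈ (Q : Subgroup G))).erase 1, f u) =
      (∑ u ∈ univ.filter (· ∈ (P : Subgroup G)), f u) - f 1 := by
    intro Q
    have h2 : (1 : G) ∈ univ.filter (· ∈ (Q : Subgroup G)) := by
      rw [mem_filter]
      exact ⟨mem_univ _, one_mem _⟩
    rw [eq_sub_iff_add_eq', add_sum_erase _ _ h2]
    obtain ⟨g, hg⟩ := MulAction.exists_smul_eq G P Q
    have h3 : univ.filter (· ∈ (Q : Subgroup G)) = (univ.filter (· ∈ (P : Subgroup G))).image (fun x => g * x * g⁻¹) := by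
      ext y
      rw [mem_image, mem_filter]
      constructor
      · rintro ⟨-, hy⟩
        rw [← hg, Sylow.coe_subgroup_smul, Subgroup.mem_pointwise_smul_iff_inv_smul_mem] at hy
        refine ⟨g⁻¹ * y * g, ?_, by group⟩
        rw [mem_filter]
        refine ⟨mem_univ _, ?_⟩
        simpa [MulAut.smul_def] using hy
      · rintro ⟨x, hx, rfl⟩
        rw [mem_filter] at hx
        refine ⟨mem_univ _, ?_⟩
        rw [← hg, Sylow.coe_subgroup_smul, Subgroup.mem_pointwise_smul_iff_inv_smul_mem]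
        have : (MulAut.conj g)⁻¹ • (g * x * g⁻¹) = x := by
          rw [← map_inv, MulAut.smul_def, MulAut.conj_apply]
          group
        rw [this]
        exact hx.2
    rw [h3, sum_image fun a _ b _ hab => by simpa using hab]
    exact sum_congr rfl fun x _ => hf g x
  have h4 : ∑ Q : Sylow p G, (∑ u ∈ (univ.filter (· ∈ (Q : Subgroup G))).erase 1, f u) =
      ∑ u ∈ (univ.filter (· ∈ pSet p G)).erase 1, f u := by
    have e1 : ∀ Q : Sylow p G, (∑ u ∈ (univ.filter (· ∈ (Q : Subgroup G))).erase 1, f u) =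
        ∑ u ∈ univ.erase (1 : G), if u ∈ (Q : Subgroup G) then f u else 0 := by
      intro Q
      rw [← sum_filter]
      refine sum_congr ?_ fun _ _ => rfl
      ext u
      simp only [mem_erase, mem_filter, mem_univ, true_and, and_true]
    rw [sum_congr rfl fun Q _ => e1 Q, sum_comm]
    have e2 : ∀ u ∈ univ.erase (1 : G), (∑ Q : Sylow p G, if u ∈ (Q : Subgroup G) then f u else 0) =
        if u ∈ pSet p G then f u else 0 := by
      intro u hu
      rw [← sum_filter, sum_const, mem_sylow_iff h (mem_erase.1 hu).1]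
      split_ifs <;> simp
    rw [sum_congr rfl e2, ← sum_filter]
    refine sum_congr ?_ fun _ _ => rfl
    ext u
    simp only [mem_erase, mem_filter, mem_univ, true_and, and_true]
  rw [← h4, sum_congr rfl fun Q _ => hQ Q, sum_const, card_univ, nsmul_eq_mul]

/-- **The sum over a Sylow subgroup is zero** -/
theorem sum_sylow_eq_zero [Finite G] {p : ℕ} [hp : Fact p.Prime] (h : H210.Loc.TI p G) (P : Sylow p G) [Fintype (P : Subgroup G)]
    (hpG : p ∣ Nat.card G) (hcard : (pSet p G).ncard = p ^ (2 * (Nat.card G).factorization p)) {f : G → ℂ}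
    (hf : ∀ g x : G, f (g * x * g⁻¹) = f x)
    (hs : ∑ᶠ u ∈ pSet p G, f u = - (p : ℂ) ^ (Nat.card G).factorization p * f 1) :
    ∑ u : (P : Subgroup G), f u = 0 := by
  classical
  have := Fintype.ofFinite G
  set v := (Nat.card G).factorization p with hv
  have hPc : Nat.card (P : Subgroup G) = p ^ v := Sylow.card_eq_multiplicity P
  have hp1 : 1 < p := hp.out.one_lt
  have hv1 : v ≠ 0 := by
    rw [hv, ← Nat.pos_iff_ne_zero]
    exact hp.out.factorization_pos_of_dvd Nat.card_pos.ne' hpG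
  have hpv : 1 < p ^ v := Nat.one_lt_pow hv1 hp1
  have e1 : ∀ f : G → ℂ, (∑ u ∈ univ.filter (· ∈ (P : Subgroup G)), f u) = ∑ u : (P : Subgroup G), f u := by
    intro f
    exact Finset.sum_subtype _ (fun x => by simp) f
  -- the number of Sylow subgroups
  have hn : (Fintype.card (Sylow p G) : ℂ) = (p : ℂ) ^ v + 1 := by
    have h1 := sum_pSet h P (f := fun _ => (1 : ℂ)) (fun _ _ => rfl)
    rw [e1, sum_const, sum_const, card_univ, nsmul_eq_mul, nsmul_eq_mul, mul_one, mul_one,
      ← Nat.card_eq_fintype_card (α := (P : Subgroup G)), hPc] at h1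
    have h2 : ((univ.filter (· ∈ pSet p G)).card : ℂ) = ((p ^ (2 * v) : ℕ) : ℂ) := by
      congr 1
      rw [← hcard, Set.ncard_eq_toFinset_card']
      congr 1
      ext x
      simp
    rw [h2] at h1
    push_cast at h1
    have h3 : (p : ℂ) ^ v - 1 ≠ 0 := by
      rw [sub_ne_zero]
      exact_mod_cast hpv.ne'
    apply mul_right_cancel₀ h3
    have h4 : (p : ℂ) ^ (2 * v) = (p : ℂ) ^ v * (p : ℂ) ^ v := by rw [two_mul, pow_add]
    rw [h4] at h1
    linear_combination -h1
  rw [finsum_pSet, sum_pSet h P hf, e1, hn] at hs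
  have h5 : ((p : ℂ) ^ v + 1) * ∑ u : (P : Subgroup G), f u = 0 := by linear_combination hs
  rcases mul_eq_zero.1 h5 with h6 | h6
  · exfalso
    have : ((p ^ v + 1 : ℕ) : ℂ) = 0 := by push_cast; exact h6
    exact absurd (Nat.cast_eq_zero.1 this) (by omega)
  · exact h6

end TI

section Zero

variable [Finite G]

/-- **Vanishing**: `s` normalises `P`, `C_P(s) = 1` and the sum of `χ` over `P` is zero. -/
theorem zero_of_sum {χ : G → ℂ} (hχ : IsCharacter G χ) (P : Subgroup G) [Fintype P] (h0 : ∑ u : P, χ u = 0) {s : G}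
    (hs : ∀ u ∈ P, s⁻¹ * u * s ∈ P) (hc : ∀ u ∈ P, u * s = s * u → u = 1) : χ s = 0 := by
  classical
  obtain ⟨n, ρ, rfl⟩ := hχ
  set A : Module.End ℂ (Fin n → ℂ) := ∑ u : P, ρ (u : G) with hA
  have hP0 : ((Fintype.card P : ℕ) : ℂ) ≠ 0 := by exact_mod_cast Fintype.card_ne_zero
  have hAA : A * A = (Fintype.card P : ℂ) • A := by
    rw [hA, Finset.sum_mul]
    have : ∀ u : P, ρ (u : G) * ∑ v : P, ρ (v : G) = ∑ v : P, ρ (v : G) := by
      intro u
      rw [Finset.mul_sum, ← Equiv.sum_comp (Equiv.mulLeft u) (fun v : P => ρ (v : G))]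
      refine Finset.sum_congr rfl fun v _ => ?_
      rw [Equiv.coe_mulLeft, Subgroup.coe_mul, map_mul]
    rw [Finset.sum_congr rfl fun u _ => this u, Finset.sum_const, Finset.card_univ, Nat.cast_smul_eq_nsmul]
  have htr : LinearMap.trace ℂ _ A = 0 := by
    rw [hA, map_sum]
    exact h0
  have hA0 : A = 0 := by
    set e : Module.End ℂ (Fin n → ℂ) := (Fintype.card P : ℂ)⁻¹ • A with he
    have hidem : IsIdempotentElem e := by
      unfold IsIdempotentElem
      rw [he, smul_mul_smul_comm, hAA, smul_smul, mul_assoc, inv_mul_cancel₀ hP0, mul_one]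
    have h1 : LinearMap.trace ℂ _ e = 0 := by
      rw [he, map_smul, htr, smul_zero]
    have h2 : e = 0 := by
      have h3 := (LinearMap.isProj_range_iff_isIdempotentElem e).2 hidem
      have h4 := h3.trace
      rw [h1] at h4
      have h5 : Module.finrank ℂ (LinearMap.range e) = 0 := by exact_mod_cast h4.symm
      rw [Submodule.finrank_eq_zero] at h5
      exact LinearMap.range_eq_bot.1 h5
    rw [he, smul_eq_zero] at h2
    exact h2.resolve_left (inv_ne_zero hP0)
  -- the conjugates of `s`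
  let c : P → P := fun v => ⟨s⁻¹ * v * s * (v : G)⁻¹, P.mul_mem (hs v v.2) (P.inv_mem v.2)⟩
  have hcinj : Function.Injective c := by
    intro v w hvw
    have h1 : s⁻¹ * v * s * (v : G)⁻¹ = s⁻¹ * w * s * (w : G)⁻¹ := congrArg Subtype.val hvw
    have h2 : ((w : G)⁻¹ * v) * s = s * ((w : G)⁻¹ * v) := by
      have h3 : (v : G) * s * (v : G)⁻¹ = w * s * (w : G)⁻¹ := by
        have := congrArg (s * ·) h1
        simpa [mul_assoc] using this
      calc ((w : G)⁻¹ * v) * s = (w : G)⁻¹ * (v * s * (v : G)⁻¹) * v := by group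
        _ = (w : G)⁻¹ * (w * s * (w : G)⁻¹) * v := by rw [h3]
        _ = s * ((w : G)⁻¹ * v) := by group
    have h4 := hc _ (P.mul_mem (P.inv_mem w.2) v.2) h2
    apply Subtype.ext
    exact (inv_mul_eq_one.1 h4).symm
  have hcb : Function.Bijective c := Finite.injective_iff_bijective.1 hcinj
  have h1 : ∑ u : P, ρ.character (s * u) = 0 := by
    have h2 : ∑ u : P, ρ.character (s * u) = LinearMap.trace ℂ _ (ρ s * A) := by
      rw [hA, Finset.mul_sum, map_sum]
      refine Finset.sum_congr rfl fun u _ => ?_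
      rw [← map_mul]
      rfl
    rw [h2, hA0, mul_zero, map_zero]
  rw [← Equiv.sum_comp (Equiv.ofBijective c hcb)] at h1
  have h2 : ∀ v : P, ρ.character (s * ((Equiv.ofBijective c hcb v : P) : G)) = ρ.character s := by
    intro v
    have h3 : s * ((Equiv.ofBijective c hcb v : P) : G) = v * s * (v : G)⁻¹ := by
      show s * (s⁻¹ * v * s * (v : G)⁻¹) = _
      group
    rw [h3]
    exact Representation.char_conj ρ s v
  rw [Finset.sum_congr rfl fun v _ => h2 v, Finset.sum_const, Finset.card_univ, nsmul_eq_mul] at h1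
  exact (mul_eq_zero.1 h1).resolve_left hP0

end Zero

end Cfsg.Agent.H279.OZ
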