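import Cfsg.Agent.H530.OZ.Orth
import Cfsg.Agent.H279.OZ.PslZero
import Cfsg.Agent.LieClassical.OrthFourMinus
import Cfsg.Agent.H115.PelQuot
import Cfsg.Agent.Nodes.RGDClass

/-!
# The group `Ω₄⁻(q)` acting on a summand (S4842, helper279)

* `Om` : the image of `SL_2(q²)` in the isometry group of the minus space of dimension four;
* `om_norm`, `om_E`, `om_p`, `om_cen`, `om_equiv`, `om_ne`, `om_count`, `eq_one_of_order4`;
* `exists_om` : the summary.
-/

set_option autoImplicit false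

namespace Cfsg.Agent.H279.OZ

open Module QuadraticMap Cfsg Subgroup
open Cfsg.Agent.Characters
open Cfsg.Agent.LieClassical
open Cfsg.Agent.LieClassical.OrthCore Cfsg.Agent.LieClassical.OrthTrans Cfsg.Agent.H890.SpParity
open Cfsg.Agent.LieClassical.OrthFinite Cfsg.Agent.LieClassical.OrthForms
open Cfsg.Agent.H182.Sign
open scoped commutatorElement MatrixGroups

section order

/-- An element of `r`-power order of a space of dimension at most four. -/
theorem eq_one_of_order4 {F P : Type*} [Field F] [AddCommGroup P] [Module F P] [Finite F] [Finite P] {r : ℕ}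
    (hr : r.Prime) (hP : finrank F P ≤ 4)
    (hq : ¬ r ∣ Nat.card F) (hq1 : ∀ i : ℕ, 0 < i → i ≤ 4 → ¬ r ∣ Nat.card F ^ i - 1)
    {s : P ≃ₗ[F] P} (hs : ∃ j : ℕ, s ^ (r ^ j) = 1) : s = 1 := by
  have := Fact.mk hr
  have hfd : FiniteDimensional F P := Module.Finite.of_finite
  obtain ⟨j, hj⟩ := hs
  have hrP : IsPGroup r (Subgroup.zpowers s) := by
    intro x
    obtain ⟨k, hk⟩ := Subgroup.mem_zpowers_iff.1 x.2
    refine ⟨j, Subtype.ext ?_⟩
    show (x : P ≃ₗ[F] P) ^ r ^ j = 1
    rw [← hk, ← zpow_natCast, ← zpow_mul, mul_comm, zpow_mul, zpow_natCast, hj, one_zpow]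
  have h1 := hrP.card_modEq_card_fixedPoints P
  have h2 : Nat.card (MulAction.fixedPoints (Subgroup.zpowers s) P) = Nat.card (fix s) := by
    refine Nat.card_congr (Equiv.subtypeEquivRight fun v => ?_)
    rw [MulAction.mem_fixedPoints]
    show _ ↔ v ∈ fix s
    rw [mem_fix]
    constructor
    · intro h
      exact h ⟨s, Subgroup.mem_zpowers s⟩
    · intro h x
      obtain ⟨k, hk⟩ := Subgroup.mem_zpowers_iff.1 x.2
      show (x : P ≃ₗ[F] P) v = v
      rw [← hk]
      have h3 : s ∈ MulAction.stabilizer (P ≃ₗ[F] P) v := h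
      exact (MulAction.stabilizer (P ≃ₗ[F] P) v).zpow_mem h3 k
  rw [h2, Module.natCard_eq_pow_finrank (K := F) (V := P), Module.natCard_eq_pow_finrank (K := F) (V := fix s)] at h1
  have hle := Submodule.finrank_le (fix s)
  have hF : 0 < Nat.card F := Nat.card_pos
  have h3 : finrank F (fix s) = finrank F P := by
    by_contra hne
    have hlt : finrank F (fix s) < finrank F P := lt_of_le_of_ne hle hne
    obtain ⟨i, hi⟩ : ∃ i, finrank F P = finrank F (fix s) + i := ⟨finrank F P - finrank F (fix s), by omega⟩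
    have h4 : r ∣ Nat.card F ^ finrank F P - Nat.card F ^ finrank F (fix s) :=
      (Nat.modEq_iff_dvd' (Nat.pow_le_pow_right hF hle)).1 h1.symm
    rw [hi, pow_add, ← Nat.mul_sub_one] at h4
    rcases (Nat.Prime.dvd_mul hr).1 h4 with h5 | h5
    · exact hq (hr.dvd_of_dvd_pow h5)
    · exact hq1 i (by omega) (by omega) h5
  have h4 : fix s = ⊤ := Submodule.eq_top_of_finrank_eq h3
  ext v
  have : v ∈ fix s := by rw [h4]; exact Submodule.mem_top
  exact mem_fix.1 this

end order

section om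

variable {F : Type} [Field F] {c d : F}

/-- `Ω₄⁻`, as a group of automorphisms of the space -/
def Om (F : Type) [Field F] (c d : F) : Subgroup (OrthFourMinus.V F c d ≃ₗ[F] OrthFourMinus.V F c d) :=
  ((OrthFourMinus.phi (F := F) (c := c) (d := d)).range).map
    (OrthFourCommon.isom (OrthFourMinus.Q c d)).subtype

theorem om_le : Om F c d ≤ OrthFourCommon.isom (OrthFourMinus.Q c d) := by
  rintro _ ⟨x, -, rfl⟩
  exact x.2

theorem mem_om {x : OrthFourCommon.isom (OrthFourMinus.Q c d)} :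
    (x : OrthFourMinus.V F c d ≃ₗ[F] OrthFourMinus.V F c d) ∈ Om F c d ↔
      x ∈ (OrthFourMinus.phi (F := F) (c := c) (d := d)).range := by
  constructor
  · rintro ⟨y, hy, hyx⟩
    have : y = x := Subtype.ext hyx
    rwa [← this]
  · intro h
    exact ⟨x, h, rfl⟩

theorem finite_V [Finite F] : Finite (OrthFourMinus.V F c d) := by
  have : Finite (OrthFourMinus.E F c d) := Finite.of_equiv _ (QuadraticAlgebra.equivProd c d).symm
  infer_instance

theorem tau_sq : OrthFourMinus.tau (c := c) (d := d) * OrthFourMinus.tau = 1 := by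
  refine Subtype.ext (LinearEquiv.ext fun v => ?_)
  show (OrthFourMinus.tau (c := c) (d := d)).1 ((OrthFourMinus.tau (c := c) (d := d)).1 v) = v
  rw [OrthFourMinus.tau_apply, OrthFourMinus.tau_apply]
  simp

theorem psi_mem {p : OrthFourMinus.Gam F c d} {u : OrthFourMinus.E F c d} (hu : QuadraticAlgebra.norm u = 1)
    (h : u ^ 2 * (p.1 : OrthFourMinus.ME F c d).det = 1) :
    OrthFourMinus.psi p ∈ (OrthFourMinus.phi (F := F) (c := c) (d := d)).range := by
  rw [OrthFourMinus.phi_range]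
  refine ⟨OrthFourMinus.scal u hu * p, ?_, by rw [map_mul, OrthFourMinus.psi_scal, one_mul]⟩
  show (OrthFourMinus.scal u hu * p).1.det = 1
  ext1
  rw [Matrix.GeneralLinearGroup.val_det_apply]
  show ((u • (1 : OrthFourMinus.ME F c d)) * (p.1 : OrthFourMinus.ME F c d)).det = 1
  rw [Matrix.det_mul, Matrix.det_smul, Matrix.det_one, mul_one, Fintype.card_fin]
  exact h

theorem sw_det (p : OrthFourMinus.Gam F c d) :
    ((OrthFourMinus.sw p).1 : OrthFourMinus.ME F c d).det = star (p.1 : OrthFourMinus.ME F c d).det := by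
  show ((starRingEnd (OrthFourMinus.E F c d)).mapMatrix (p.1 : OrthFourMinus.ME F c d)).det = _
  rw [← RingHom.map_det]
  rfl

section field

variable [hab : Fact (∀ r : F, r ^ 2 ≠ c + d * r)]

/-- squares -/
theorem sq_range [Finite F] (g : OrthFourCommon.isom (OrthFourMinus.Q c d)) :
    g * g ∈ (OrthFourMinus.phi (F := F) (c := c) (d := d)).range := by
  obtain ⟨p, rfl | rfl⟩ := OrthFourMinus.exists_eq OrthFourMinus.norm_surjective g
  · rw [← map_mul]
    have hn : QuadraticAlgebra.norm (p.1 : OrthFourMinus.ME F c d).det = 1 := p.2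
    have h0 : (p.1 : OrthFourMinus.ME F c d).det ≠ 0 := by
      intro h
      rw [h, QuadraticAlgebra.norm_zero] at hn
      exact zero_ne_one hn
    refine psi_mem (u := ((p.1 : OrthFourMinus.ME F c d).det)⁻¹) ?_ ?_
    · have h1 : QuadraticAlgebra.norm ((p.1 : OrthFourMinus.ME F c d).det)⁻¹ *
          QuadraticAlgebra.norm (p.1 : OrthFourMinus.ME F c d).det = 1 := by
        rw [← map_mul, inv_mul_cancel₀ h0, map_one]
      rwa [hn, mul_one] at h1
    · show (((p.1 : OrthFourMinus.ME F c d).det)⁻¹) ^ 2 *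
        ((p.1 : OrthFourMinus.ME F c d) * (p.1 : OrthFourMinus.ME F c d)).det = 1
      rw [Matrix.det_mul]
      field_simp
  · have h1 : OrthFourMinus.psi p * OrthFourMinus.tau * (OrthFourMinus.psi p * OrthFourMinus.tau) =
        OrthFourMinus.psi (p * OrthFourMinus.sw p) := by
      have h2 := OrthFourMinus.tau_conj p
      have h3 : (OrthFourMinus.tau (c := c) (d := d))⁻¹ = OrthFourMinus.tau := by
        rw [inv_eq_iff_mul_eq_one]
        exact tau_sq
      rw [h3] at h2
      rw [map_mul, ← h2]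
      group
    rw [h1]
    refine psi_mem (u := 1) (map_one _) ?_
    show (1 : OrthFourMinus.E F c d) ^ 2 *
      ((p.1 : OrthFourMinus.ME F c d) * ((OrthFourMinus.sw p).1 : OrthFourMinus.ME F c d)).det = 1
    have hn : QuadraticAlgebra.norm (p.1 : OrthFourMinus.ME F c d).det = 1 := p.2
    rw [Matrix.det_mul, sw_det, one_pow, one_mul, ← QuadraticAlgebra.algebraMap_norm_eq_mul_star, hn, map_one]

/-- characteristic two -/
theorem psi_range2 [Finite F] [CharP F 2] (p : OrthFourMinus.Gam F c d) :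
    OrthFourMinus.psi p ∈ (OrthFourMinus.phi (F := F) (c := c) (d := d)).range := by
  have : Finite (OrthFourMinus.E F c d) := Finite.of_equiv _ (QuadraticAlgebra.equivProd c d).symm
  have hch : CharP (OrthFourMinus.E F c d) 2 :=
    charP_of_injective_algebraMap (algebraMap F (OrthFourMinus.E F c d)).injective 2
  have hn : QuadraticAlgebra.norm (p.1 : OrthFourMinus.ME F c d).det = 1 := p.2
  have h0 : (p.1 : OrthFourMinus.ME F c d).det ≠ 0 := by
    intro h
    rw [h, QuadraticAlgebra.norm_zero] at hn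
    exact zero_ne_one hn
  obtain ⟨u, hu⟩ := isSquare_of_charTwo' ((p.1 : OrthFourMinus.ME F c d).det)⁻¹
  refine psi_mem (u := u) ?_ ?_
  · have h1 : QuadraticAlgebra.norm ((p.1 : OrthFourMinus.ME F c d).det)⁻¹ *
        QuadraticAlgebra.norm (p.1 : OrthFourMinus.ME F c d).det = 1 := by
      rw [← map_mul, inv_mul_cancel₀ h0, map_one]
    rw [hn, mul_one, hu, map_mul] at h1
    have h2 : (QuadraticAlgebra.norm u - 1) ^ 2 = 0 := by
      rw [sub_pow_char, one_pow, pow_two, h1, sub_self]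
    exact sub_eq_zero.1 (pow_eq_zero_iff two_ne_zero |>.1 h2)
  · rw [pow_two, ← hu, inv_mul_cancel₀ h0]

theorem range_eq [Finite F] : (OrthFourMinus.phi (F := F) (c := c) (d := d)).range =
    commutator (OrthFourCommon.isom (OrthFourMinus.Q c d)) :=
  le_antisymm OrthFourMinus.le_commutator
    (OrthFourMinus.commutator_le' (OrthFourMinus.exists_eq OrthFourMinus.norm_surjective))

theorem om_norm [Finite F] {g : OrthFourMinus.V F c d ≃ₗ[F] OrthFourMinus.V F c d}
    (hg : g ∈ OrthFourCommon.isom (OrthFourMinus.Q c d))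
    {s : OrthFourMinus.V F c d ≃ₗ[F] OrthFourMinus.V F c d} (hs : s ∈ Om F c d) : g * s * g⁻¹ ∈ Om F c d := by
  obtain ⟨x, hx, rfl⟩ := hs
  have h1 : (⟨g, hg⟩ : OrthFourCommon.isom (OrthFourMinus.Q c d)) * x * ⟨g, hg⟩⁻¹ ∈
      (OrthFourMinus.phi (F := F) (c := c) (d := d)).range := by
    have hx' : x ∈ commutator (OrthFourCommon.isom (OrthFourMinus.Q c d)) := by rw [← range_eq]; exact hx
    rw [range_eq]
    exact (commutator_normal ⊤ ⊤).conj_mem x hx' ⟨g, hg⟩
  exact mem_om.2 h1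

/-- `Ω₄⁻` is trivial on the complement and lies in `E`. -/
theorem om_E [Finite F] {U : Type} [AddCommGroup U] [Module F U] [Finite U] {Q : QuadraticForm F U}
    {Q' : QuadraticForm F (OrthFourMinus.V F c d)} (hQ' : ∀ v, Q' v = OrthFourMinus.Q c d v)
    (hG : Good (prodForm Q Q'))
    {s : OrthFourMinus.V F c d ≃ₗ[F] OrthFourMinus.V F c d} (hs : s ∈ Om F c d) :
    (LinearEquiv.refl F U).prodCongr s ∈ E (prodForm Q Q') := by
  have hfin := finite_V (F := F) (c := c) (d := d)
  obtain ⟨x, hx, rfl⟩ := hs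
  apply hG.commutator_le_E
  let f : OrthFourCommon.isom (OrthFourMinus.Q c d) →*
      ((U × OrthFourMinus.V F c d) ≃ₗ[F] (U × OrthFourMinus.V F c d)) :=
    { toFun := fun g => (LinearEquiv.refl F U).prodCongr g.1
      map_one' := rfl
      map_mul' := fun _ _ => rfl }
  have hx' : x ∈ commutator (OrthFourCommon.isom (OrthFourMinus.Q c d)) := by rw [← range_eq]; exact hx
  have h1 : f x ∈ (commutator (OrthFourCommon.isom (OrthFourMinus.Q c d))).map f := ⟨x, hx', rfl⟩
  rw [commutator_def, Subgroup.map_commutator] at h1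
  have h2 : (⊤ : Subgroup (OrthFourCommon.isom (OrthFourMinus.Q c d))).map f ≤ O (prodForm Q Q') := by
    rintro _ ⟨g, -, rfl⟩ v
    rw [prodForm_apply, prodForm_apply]
    show Q v.1 + Q' (g.1 v.2) = _
    rw [hQ', hQ']
    congr 1
    exact g.2 v.2
  exact Subgroup.commutator_mono h2 h2 h1

/-- the parity of `tau` -/
theorem tau_odd [Finite F] [CharP F 2] (U : Type) [AddCommGroup U] [Module F U] [FiniteDimensional F U] :
    ¬ Even (finrank F (fix ((LinearEquiv.refl F U).prodCongr (OrthFourMinus.tau (c := c) (d := d)).1)) +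
      finrank F (U × OrthFourMinus.V F c d)) := by
  have hd : d ≠ 0 := by
    rintro rfl
    obtain ⟨r, hr⟩ := isSquare_of_charTwo' c
    refine hab.out r ?_
    rw [zero_mul, add_zero, pow_two, ← hr]
  let f : (U × OrthFourMinus.V F c d) →ₗ[F] F :=
    { toFun := fun v => v.2.2.2.im
      map_add' := fun _ _ => rfl
      map_smul' := fun _ _ => rfl }
  have h1 : fix ((LinearEquiv.refl F U).prodCongr (OrthFourMinus.tau (c := c) (d := d)).1) = LinearMap.ker f := by
    ext v
    rw [mem_fix, LinearMap.mem_ker]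
    have h2 : ((LinearEquiv.refl F U).prodCongr (OrthFourMinus.tau (c := c) (d := d)).1) v =
        (v.1, (v.2.1, v.2.2.1, star v.2.2.2)) := rfl
    rw [h2]
    have h3 : ((v.1, (v.2.1, v.2.2.1, star v.2.2.2)) : U × OrthFourMinus.V F c d) = v ↔ star v.2.2.2 = v.2.2.2 :=
      ⟨fun h => congrArg (fun w : U × OrthFourMinus.V F c d => w.2.2.2) h, fun h => by rw [h]⟩
    rw [h3]
    show _ ↔ v.2.2.2.im = 0
    constructor
    · intro h
      have h4 := congrArg QuadraticAlgebra.re h
      rw [QuadraticAlgebra.re_star] at h4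
      have h5 : d * v.2.2.2.im = 0 := by linear_combination h4
      exact (mul_eq_zero.1 h5).resolve_left hd
    · intro h
      ext
      · rw [QuadraticAlgebra.re_star, h, mul_zero, add_zero]
      · rw [QuadraticAlgebra.im_star, h, neg_zero]
  have h2 : LinearMap.range f = ⊤ := by
    rw [LinearMap.range_eq_top]
    intro x
    exact ⟨(0, 0, 0, ⟨0, x⟩), rfl⟩
  have h3 := LinearMap.finrank_range_add_finrank_ker f
  rw [h2, finrank_top, Module.finrank_self] at h3
  rw [h1, ← h3]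
  rw [Nat.not_even_iff_odd]
  exact ⟨finrank F (LinearMap.ker f), by ring⟩

/-- `p`-elements -/
theorem om_p [Finite F] {p : ℕ} [hpf : Fact p.Prime] [CharP F p] {U : Type} [AddCommGroup U] [Module F U]
    [Finite U] {Q : QuadraticForm F U}
    {Q' : QuadraticForm F (OrthFourMinus.V F c d)} (hQ' : ∀ v, Q' v = OrthFourMinus.Q c d v)
    (hG : Good (prodForm Q Q'))
    {s : OrthFourMinus.V F c d ≃ₗ[F] OrthFourMinus.V F c d}
    (hs : s ∈ OrthFourCommon.isom (OrthFourMinus.Q c d))
    (hE : (LinearEquiv.refl F U).prodCongr s ∈ E (prodForm Q Q')) (hp : ∃ i : ℕ, s ^ (p ^ i) = 1) :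
    s ∈ Om F c d := by
  by_cases hp2 : p = 2
  · subst hp2
    obtain ⟨g, hg | hg⟩ := OrthFourMinus.exists_eq OrthFourMinus.norm_surjective
      (⟨s, hs⟩ : OrthFourCommon.isom (OrthFourMinus.Q c d))
    · have h1 := psi_range2 g
      rw [← hg] at h1
      exact mem_om.2 h1
    · exfalso
      have h1 := mem_om.2 (psi_range2 g)
      have h2 := om_E hQ' hG h1
      have h3 := (E (prodForm Q Q')).mul_mem ((E (prodForm Q Q')).inv_mem h2) hE
      have h4 : ((LinearEquiv.refl F U).prodCongr (OrthFourMinus.psi g).1)⁻¹ *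
          (LinearEquiv.refl F U).prodCongr s =
          (LinearEquiv.refl F U).prodCongr (OrthFourMinus.tau (c := c) (d := d)).1 := by
        rw [inv_mul_eq_iff_eq_mul]
        have h5 : s = (OrthFourMinus.psi g).1 * (OrthFourMinus.tau (c := c) (d := d)).1 :=
          congrArg Subtype.val hg
        rw [h5]
        rfl
      rw [h4] at h3
      have hfd : FiniteDimensional F (OrthFourMinus.V F c d) :=
        Module.Finite.equiv (OrthFourMinus.coord F c d)
      have hfU : FiniteDimensional F U := Module.Finite.of_finite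
      exact tau_odd U (even_E hG.nondeg h3)
  · obtain ⟨i, hi⟩ := hp
    have hodd : Odd (p ^ i) := (hpf.1.odd_of_ne_two hp2).pow
    obtain ⟨m, hm⟩ := hodd
    have h1 : s ^ (m + 1) * s ^ (m + 1) = s := by
      rw [← pow_add, show m + 1 + (m + 1) = (2 * m + 1) + 1 by ring, ← hm, pow_succ, hi, one_mul]
    have h2 := sq_range ((⟨s, hs⟩ : OrthFourCommon.isom (OrthFourMinus.Q c d)) ^ (m + 1))
    have h3 := mem_om.2 h2
    have h4 : (((⟨s, hs⟩ : OrthFourCommon.isom (OrthFourMinus.Q c d)) ^ (m + 1) *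
        (⟨s, hs⟩ : OrthFourCommon.isom (OrthFourMinus.Q c d)) ^ (m + 1) :
          OrthFourCommon.isom (OrthFourMinus.Q c d)) : OrthFourMinus.V F c d ≃ₗ[F] OrthFourMinus.V F c d) =
        s ^ (m + 1) * s ^ (m + 1) := rfl
    rw [h4, h1] at h3
    exact h3

theorem phi_ker : (OrthFourMinus.phi (F := F) (c := c) (d := d)).ker =
    Subgroup.center (Matrix.SpecialLinearGroup (Fin 2) (OrthFourMinus.E F c d)) := by
  ext s
  rw [MonoidHom.mem_ker]
  constructor
  · exact OrthFourMinus.mem_center_of_phi_eq_one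
  · intro hs
    obtain ⟨a, ha, has⟩ := Matrix.SpecialLinearGroup.mem_center_iff.1 hs
    rw [Fintype.card_fin] at ha
    have hn : QuadraticAlgebra.norm a = 1 := by
      have h1 : (a - 1) * (a + 1) = 0 := by linear_combination ha
      rcases mul_eq_zero.1 h1 with h2 | h2
      · rw [sub_eq_zero.1 h2, map_one]
      · rw [eq_neg_of_add_eq_zero_left h2, QuadraticAlgebra.norm_neg, map_one]
    have h2 : OrthFourMinus.inc s = OrthFourMinus.scal a hn := by
      refine Subtype.ext (Units.ext ?_)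
      show (s.1 : OrthFourMinus.ME F c d) = a • 1
      rw [← has]
      refine Matrix.ext fun i j => ?_
      rw [Matrix.scalar_apply, Matrix.smul_apply, Matrix.diagonal_apply, Matrix.one_apply]
      split_ifs <;> simp
    show OrthFourMinus.psi (OrthFourMinus.inc s) = 1
    rw [h2, OrthFourMinus.psi_scal]

theorem om_equiv : Nonempty (Om F c d ≃* PSL(2, OrthFourMinus.E F c d)) := by
  have e1 : (Matrix.SpecialLinearGroup (Fin 2) (OrthFourMinus.E F c d) ⧸
      (OrthFourMinus.phi (F := F) (c := c) (d := d)).ker) ≃* (OrthFourMinus.phi (F := F) (c := c) (d := d)).range :=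
    QuotientGroup.quotientKerEquivRange _
  have e2 : (Matrix.SpecialLinearGroup (Fin 2) (OrthFourMinus.E F c d) ⧸
      Subgroup.center (Matrix.SpecialLinearGroup (Fin 2) (OrthFourMinus.E F c d))) ≃*
      (Matrix.SpecialLinearGroup (Fin 2) (OrthFourMinus.E F c d) ⧸
        (OrthFourMinus.phi (F := F) (c := c) (d := d)).ker) := QuotientGroup.quotientMulEquivOfEq phi_ker.symm
  have e3 : (OrthFourMinus.phi (F := F) (c := c) (d := d)).range ≃* Om F c d :=
    Subgroup.equivMapOfInjective _ _ (Subgroup.subtype_injective _)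
  exact ⟨((e2.trans e1).trans e3).symm⟩

theorem om_cen {s : OrthFourMinus.V F c d ≃ₗ[F] OrthFourMinus.V F c d} (hs : s ∈ Om F c d)
    (h : ∀ s' ∈ Om F c d, s * s' = s' * s) : s = 1 := by
  obtain ⟨_, ⟨x, rfl⟩, rfl⟩ := hs
  have h1 : x ∈ Subgroup.center (Matrix.SpecialLinearGroup (Fin 2) (OrthFourMinus.E F c d)) := by
    rw [OrthFourMinus.mem_center_iff']
    intro t
    rw [map_commutatorElement, commutatorElement_eq_one_iff_mul_comm]
    apply Subtype.ext
    exact h _ ⟨OrthFourMinus.phi t, ⟨t, rfl⟩, rfl⟩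
  rw [← phi_ker, MonoidHom.mem_ker] at h1
  rw [h1]
  rfl

theorem card_E [Fintype F] [Fintype (OrthFourMinus.E F c d)] :
    Fintype.card (OrthFourMinus.E F c d) = Fintype.card F ^ 2 := by
  rw [Fintype.card_congr (QuadraticAlgebra.equivProd c d), Fintype.card_prod, pow_two]

/-- Steinberg's count for `PSL_2(E)`. -/
theorem count_psl {E : Type} [Field E] [Fintype E] {p f : ℕ} [hpf : Fact p.Prime] [CharP E p] (hf : 0 < f)
    (hE : Fintype.card E = p ^ f) {K : Type*} [Group K] (e : K ≃* Matrix.ProjectiveSpecialLinearGroup (Fin 2) E) :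
    Nat.card {v : K // ∃ j : ℕ, orderOf v = p ^ j} = p ^ (2 * f) := by
  classical
  have hfin : Finite (Matrix.ProjectiveSpecialLinearGroup (Fin 2) E) := by
    unfold Matrix.ProjectiveSpecialLinearGroup
    infer_instance
  rw [Cfsg.Agent.H115.card_pel_equiv e, mul_comm 2, pow_mul]
  have h1 := ClassicalGeometry.PSL2Basic.card_PSL2_gcd (F := E)
  have hpp := hpf.1
  have hsub : ¬ p ∣ Fintype.card E ^ 2 - 1 := by
    rw [hE, ← pow_mul]
    intro h
    have h2 : p ∣ p ^ (f * 2) := dvd_pow_self p (by omega)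
    have h3 : 1 ≤ p ^ (f * 2) := Nat.one_le_pow _ _ hpp.pos
    have h4 : p ∣ 1 := by
      have := Nat.dvd_sub h2 h
      rwa [Nat.sub_sub_self h3] at this
    exact hpp.one_lt.ne' (Nat.dvd_one.1 h4)
  have hgcd : Nat.gcd 2 (Fintype.card E - 1) ∣ Fintype.card E ^ 2 - 1 := by
    refine (Nat.gcd_dvd_right _ _).trans ?_
    simpa using Nat.sub_dvd_pow_sub_pow (Fintype.card E) 1 2
  obtain ⟨m, hm⟩ := hgcd
  have hg0 : 0 < Nat.gcd 2 (Fintype.card E - 1) := Nat.gcd_pos_of_pos_left _ (by norm_num)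
  have h2 : Nat.card (Matrix.ProjectiveSpecialLinearGroup (Fin 2) E) = p ^ f * m := by
    apply Nat.eq_of_mul_eq_mul_right hg0
    rw [h1, hm, ← hE]
    ring
  refine Cfsg.Agent.H115.card_pel_of_hasRGD' (Cfsg.Agent.Nodes.RGDClass.hasRGD_PSL (F := E) 1 (p := p)) h2 ?_
  intro h
  exact hsub (hm ▸ Dvd.dvd.mul_left h _)

theorem om_ne [Fintype F] : Om F c d ≠ ⊥ := by
  classical
  intro h
  let _ : Fintype (OrthFourMinus.E F c d) := Fintype.ofEquiv _ (QuadraticAlgebra.equivProd c d).symm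
  obtain ⟨e⟩ := om_equiv (F := F) (c := c) (d := d)
  have h1 : Nat.card (Om F c d) = 1 := by rw [h]; exact Subgroup.card_bot
  rw [Nat.card_congr e.toEquiv] at h1
  have h2 := ClassicalGeometry.PSL2Basic.card_PSL2_gcd (F := OrthFourMinus.E F c d)
  have h3 : 2 ≤ Fintype.card F := Fintype.one_lt_card
  have h4 : 4 ≤ Fintype.card (OrthFourMinus.E F c d) := by
    rw [card_E]
    nlinarith
  rw [h1, one_mul] at h2
  have h5 : Nat.gcd 2 (Fintype.card (OrthFourMinus.E F c d) - 1) ≤ 2 := Nat.gcd_le_left _ (by norm_num)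
  have h6 : 4 * 4 ≤ Fintype.card (OrthFourMinus.E F c d) * (Fintype.card (OrthFourMinus.E F c d) ^ 2 - 1) :=
    Nat.mul_le_mul h4 (by
      have : 4 ^ 2 ≤ Fintype.card (OrthFourMinus.E F c d) ^ 2 := Nat.pow_le_pow_left h4 2
      omega)
  omega

theorem om_r [Finite F] {r : ℕ} (hr : r.Prime)
    (hss : ∀ s : OrthFourMinus.V F c d ≃ₗ[F] OrthFourMinus.V F c d, (∃ j : ℕ, s ^ (r ^ j) = 1) → s = 1) :
    ¬ r ∣ Nat.card (Om F c d) := by
  intro h
  have := Fact.mk hr
  have hfin := finite_V (F := F) (c := c) (d := d)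
  have hfin' : Finite (OrthFourMinus.V F c d ≃ₗ[F] OrthFourMinus.V F c d) :=
    Finite.of_injective (fun g : OrthFourMinus.V F c d ≃ₗ[F] OrthFourMinus.V F c d =>
      (g : OrthFourMinus.V F c d → OrthFourMinus.V F c d)) DFunLike.coe_injective
  obtain ⟨x, hx⟩ := exists_prime_orderOf_dvd_card' (G := Om F c d) r h
  have h1 : (x : OrthFourMinus.V F c d ≃ₗ[F] OrthFourMinus.V F c d) = 1 := hss _ ⟨1, by
    rw [pow_one, ← hx, ← Subgroup.orderOf_coe, pow_orderOf_eq_one]⟩
  rw [← Subgroup.orderOf_coe, h1, orderOf_one] at hx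
  exact hr.one_lt.ne hx

end field

end om

/-- **Summary: `Ω₄⁻(q)`.** -/
theorem exists_om (F : Type) [Field F] [Fintype F] {p f : ℕ} [hpf : Fact p.Prime] [CharP F p]
    (hF : Fintype.card F = p ^ f) :
    ∃ (P : Type) (_ : AddCommGroup P) (_ : Module F P) (_ : Finite P) (Q' : QuadraticForm F P)
      (Om : Subgroup (P ≃ₗ[F] P)), Sg Q' 2 (-1) ∧ Om ≤ O Q' ∧
      (∀ r : ℕ, r.Prime → ¬ r ∣ Nat.card F → (∀ i : ℕ, 0 < i → i ≤ 4 → ¬ r ∣ Nat.card F ^ i - 1) →
        (∀ s : P ≃ₗ[F] P, (∃ i : ℕ, s ^ (r ^ i) = 1) → s = 1) ∧ ¬ r ∣ Nat.card Om) ∧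
      (∀ (U : Type) [AddCommGroup U] [Module F U] [Finite U] (Q : QuadraticForm F U), Good (prodForm Q Q') →
        ∀ s ∈ Om, (LinearEquiv.refl F U).prodCongr s ∈ E (prodForm Q Q')) ∧
      (∀ g ∈ O Q', ∀ s ∈ Om, g * s * g⁻¹ ∈ Om) ∧
      (∀ (U : Type) [AddCommGroup U] [Module F U] [Finite U] (Q : QuadraticForm F U), Good (prodForm Q Q') →
        ∀ s ∈ O Q', (LinearEquiv.refl F U).prodCongr s ∈ E (prodForm Q Q') → (∃ i : ℕ, s ^ (p ^ i) = 1) → s ∈ Om) ∧
      Om ≠ ⊥ ∧ (∀ s ∈ Om, (∀ s' ∈ Om, s * s' = s' * s) → s = 1) ∧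
      (∀ φ : Om → ℂ, IsIrrCharacter Om φ → (∃ k, φ k ≠ 1) →
        ∃ k : Om, ∀ k' : Om, orderOf k' = orderOf k → φ k' = 0) ∧
      Nat.card {v : Om // ∃ i : ℕ, orderOf v = p ^ i} = p ^ (4 * f) := by
  classical
  obtain ⟨ζ, hζ⟩ := exists_aniso F
  have hab : Fact (∀ r : F, r ^ 2 ≠ -ζ + 1 * r) := ⟨fun r hr => by
    have := (hζ (-r) 1 (by linear_combination hr)).2
    exact one_ne_zero this⟩
  have hfin := finite_V (F := F) (c := -ζ) (d := 1)
  have hfd : FiniteDimensional F (OrthFourMinus.V F (-ζ) 1) := Module.Finite.equiv (OrthFourMinus.coord F (-ζ) 1)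
  let _ : Fintype (OrthFourMinus.E F (-ζ) 1) := Fintype.ofEquiv _ (QuadraticAlgebra.equivProd (-ζ) 1).symm
  let Q' : QuadraticForm F (OrthFourMinus.V F (-ζ) 1) :=
    (minusForm 1 F 1 ζ).comp (OrthFourMinus.coord F (-ζ) 1).symm.toLinearMap
  have hQ' : ∀ v, Q' v = OrthFourMinus.Q (-ζ) 1 v := by
    intro v
    have h1 := OrthFourMinus.Q_coord (F := F) 1 ζ ((OrthFourMinus.coord F (-ζ) 1).symm v)
    rw [LinearEquiv.apply_symm_apply] at h1
    rw [h1]
    show minusForm 1 F 1 ζ ((OrthFourMinus.coord F (-ζ) 1).symm v) = _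
    rw [coe_minusForm]
  have hO : O Q' = OrthFourCommon.isom (OrthFourMinus.Q (-ζ) 1) := by
    ext g
    show (∀ v, Q' (g v) = Q' v) ↔ ∀ v, OrthFourMinus.Q (-ζ) 1 (g v) = OrthFourMinus.Q (-ζ) 1 v
    simp only [hQ']
  have hsg : Sg Q' 2 (-1) := (sg_minusForm 1 hζ).congr (OrthFourMinus.coord F (-ζ) 1) fun v => by
    show minusForm 1 F 1 ζ ((OrthFourMinus.coord F (-ζ) 1).symm (OrthFourMinus.coord F (-ζ) 1 v)) = _
    rw [LinearEquiv.symm_apply_apply]
  obtain ⟨e⟩ := om_equiv (F := F) (c := -ζ) (d := 1)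
  have hcE : Fintype.card (OrthFourMinus.E F (-ζ) 1) = Fintype.card F ^ 2 := card_E
  have hchE : CharP (OrthFourMinus.E F (-ζ) 1) p :=
    charP_of_injective_algebraMap (algebraMap F (OrthFourMinus.E F (-ζ) 1)).injective p
  have hf : 0 < f := by
    rcases Nat.eq_zero_or_pos f with rfl | h
    · rw [pow_zero] at hF
      have : 1 < Fintype.card F := Fintype.one_lt_card
      omega
    · exact h
  refine ⟨OrthFourMinus.V F (-ζ) 1, inferInstance, inferInstance, hfin, Q', Om F (-ζ) 1, hsg, ?_, ?_, ?_, ?_, ?_,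
    om_ne, ?_, ?_, ?_⟩
  · rw [hO]; exact om_le
  · intro r hr hq hq1
    have hss : ∀ s : OrthFourMinus.V F (-ζ) 1 ≃ₗ[F] OrthFourMinus.V F (-ζ) 1,
        (∃ i : ℕ, s ^ (r ^ i) = 1) → s = 1 := fun s hs =>
      eq_one_of_order4 (F := F) hr (by rw [hsg.dim]) hq hq1 hs
    exact ⟨hss, om_r hr hss⟩
  · intro U _ _ _ Q hG s hs
    exact om_E hQ' hG hs
  · intro g hg s hs
    rw [hO] at hg
    exact om_norm hg hs
  · intro U _ _ _ Q hG s hs hE hp
    rw [hO] at hs
    exact om_p hQ' hG hs hE hp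
  · intro s hs h
    exact om_cen hs h
  · have hfinE : Finite (Om F (-ζ) 1) := by
      have hfin' : Finite (OrthFourMinus.V F (-ζ) 1 ≃ₗ[F] OrthFourMinus.V F (-ζ) 1) :=
        Finite.of_injective (fun g : OrthFourMinus.V F (-ζ) 1 ≃ₗ[F] OrthFourMinus.V F (-ζ) 1 =>
          (g : OrthFourMinus.V F (-ζ) 1 → OrthFourMinus.V F (-ζ) 1)) DFunLike.coe_injective
      infer_instance
    exact psl2_zero hcE Fintype.one_lt_card e
  · have h1 := count_psl (p := p) (f := 2 * f) (by omega) (by rw [hcE, hF, ← pow_mul, mul_comm]) e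
    rw [h1]
    congr 1
    ring

end Cfsg.Agent.H279.OZ
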