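import Cfsg.Agent.H279.OZ.Abs
import Cfsg.Agent.H448.Van.Cong

/-!
# S4842: groups of rank one (helper279)

`cong_of_rank_one` : `|G|_p = p^v`, TI Sylow `p`-subgroups, an isolated prime `r` with `ord_r(p) = 2 v` and an element
`s` normalising a Sylow `p`-subgroup `P` with `C_P(s) = 1`, not conjugate to its inverse: then `e p^m ≡ 1` modulo
`p^(2v) - 1` for the characters with exactly one class of zeros.
-/

set_option autoImplicit false

namespace Cfsg.Agent.H279.OZ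

open Cfsg Cfsg.Agent.Characters Cfsg.Agent.H730.OZ Finset
open Cfsg.Agent.H732.VZ (Iso)

universe u

variable {G : Type u} [Group G] [Finite G]

/-- the values of `(m, e)` left by the prime of order `2 v` -/
theorem cases_of_ord {p r v m : ℕ} {e : ℤ} (hr : r.Prime) (hr2 : r ≠ 2) (hv : v ≠ 0)
    (hord : orderOf (p : ZMod r) = 2 * v) (he : e = 1 ∨ e = -1) (hm : m ≤ 2 * v)
    (hd : (r : ℤ) ∣ e * (p : ℤ) ^ m - 1) : (e = 1 ∧ m = 0) ∨ (e = 1 ∧ m = 2 * v) ∨ (e = -1 ∧ m = v) := by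
  have : Fact r.Prime := ⟨hr⟩
  have hz : (e : ZMod r) * (p : ZMod r) ^ m = 1 := by
    have h1 := (ZMod.intCast_zmod_eq_zero_iff_dvd (e * (p : ℤ) ^ m - 1) r).2 (by exact_mod_cast hd)
    push_cast at h1
    exact sub_eq_zero.1 h1
  have h11 : (1 : ZMod r) ≠ -1 := by
    intro h
    have h2 : ((2 : ℕ) : ZMod r) = 0 := by
      have : (1 : ZMod r) + 1 = 0 := by
        nth_rewrite 1 [h]
        exact neg_add_cancel 1
      rw [← this]
      push_cast
      norm_num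
    rw [ZMod.natCast_eq_zero_iff] at h2
    exact hr2 ((Nat.prime_dvd_prime_iff_eq hr Nat.prime_two).1 h2)
  rcases he with rfl | rfl
  · have h1 : (p : ZMod r) ^ m = 1 := by simpa using hz
    have h2 := orderOf_dvd_of_pow_eq_one h1
    rw [hord] at h2
    obtain ⟨k, hk⟩ := h2
    have hk1 : k ≤ 1 := by
      by_contra h
      have : 2 * v * 2 ≤ 2 * v * k := Nat.mul_le_mul_left _ (by omega)
      omega
    interval_cases k
    · exact Or.inl ⟨rfl, by omega⟩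
    · exact Or.inr (Or.inl ⟨rfl, by omega⟩)
  · have h1 : (p : ZMod r) ^ m = -1 := by
      have h3 : -((p : ZMod r) ^ m) = 1 := by simpa using hz
      rw [← h3, neg_neg]
    have h2 : (p : ZMod r) ^ (2 * m) = 1 := by
      rw [mul_comm, pow_mul, h1]
      ring
    have h3 := orderOf_dvd_of_pow_eq_one h2
    rw [hord] at h3
    have h4 : v ∣ m := Nat.dvd_of_mul_dvd_mul_left (by norm_num) h3
    obtain ⟨k, rfl⟩ := h4
    have hk2 : k ≤ 2 := by
      by_contra h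
      have : v * 3 ≤ v * k := Nat.mul_le_mul_left _ (by omega)
      omega
    have h5 : (p : ZMod r) ^ (2 * v) = 1 := by rw [← hord]; exact pow_orderOf_eq_one _
    interval_cases k
    · exfalso
      rw [mul_zero, pow_zero] at h1
      exact h11 h1
    · exact Or.inr (Or.inr ⟨rfl, by ring⟩)
    · exfalso
      rw [mul_comm v 2, h5] at h1
      exact h11 h1

/-- **The case `e = -1`, `m = v`**: the character vanishes on `s` and on `s⁻¹`. -/
theorem false_of_cusp {p : ℕ} [hp : Fact p.Prime] (hTI : H210.Loc.TI p G) (P : Sylow p G) (hpG : p ∣ Nat.card G)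
    (hK : Kaw p G) {s : G} (hs1 : ∀ u ∈ (P : Subgroup G), s⁻¹ * u * s ∈ (P : Subgroup G))
    (hs2 : ∀ u ∈ (P : Subgroup G), u * s = s * u → u = 1) (hs3 : ¬ IsConj s s⁻¹) {χ : G → ℂ}
    (hχ : IsIrrCharacter G χ) (h0 : OneZero χ)
    (hsum : ∑ᶠ u ∈ pSet p G, χ u = ((-1 : ℤ) : ℂ) * (p : ℂ) ^ (Nat.card G).factorization p * χ 1) : False := by
  classical
  have := Fintype.ofFinite G
  have := Fintype.ofFinite (P : Subgroup G)
  have hch := Core.isIrr_isCharacter hχ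
  have h1 := sum_sylow_eq_zero hTI P hpG hK.card (f := χ) (fun g x => Core.isIrr_isClassFunction hχ x g) (by
    rw [hsum]; push_cast; ring)
  have h2 := zero_of_sum hch (P : Subgroup G) h1 hs1 hs2
  have h3 : χ s⁻¹ = 0 := by
    have h4 : (⟨χ, hχ⟩ : IrrCharacter G).1 s⁻¹ = (starRingEnd ℂ) (χ s) := by
      exact Core.isCharacter_apply_inv hch s
    rw [h2, map_zero] at h4
    exact h4
  obtain ⟨x, -, hx⟩ := h0
  exact hs3 ((hx s h2).symm.trans (hx s⁻¹ h3))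

/-- **Groups of rank one.** -/
theorem cong_of_rank_one {p r v : ℕ} (hp : p.Prime) (hv : (Nat.card G).factorization p = v) (hv0 : v ≠ 0)
    (hK : Kaw p G) (hTI : H210.Loc.TI p G) (hr2 : r ≠ 2) (hord : orderOf (p : ZMod r) = 2 * v) (hIso : Iso G p r)
    (P : Subgroup G) (hP : Nat.card P = p ^ v) {s : G} (hs1 : ∀ u ∈ P, s⁻¹ * u * s ∈ P)
    (hs2 : ∀ u ∈ P, u * s = s * u → u = 1) (hs3 : ¬ IsConj s s⁻¹) : Cong p (p ^ (2 * v) - 1) 0 G := by
  have : Fact p.Prime := ⟨hp⟩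
  have hpG : p ∣ Nat.card G := by
    by_contra h
    rw [Nat.factorization_eq_zero_of_not_dvd h] at hv
    exact hv0 hv.symm
  intro χ hχ h0 m e he hsum
  have hm := (hK.top hp hχ he hsum).1
  rw [hv] at hm
  have hd := H448.Van.cong_of_iso hp hIso χ hχ h0 m e he hsum
  rw [pow_zero] at hd
  rw [pow_zero]
  have h1 : 1 ≤ p ^ (2 * v) := Nat.one_le_pow _ _ hp.pos
  rcases cases_of_ord hIso.prime hr2 hv0 hord he hm hd with ⟨rfl, rfl⟩ | ⟨rfl, rfl⟩ | ⟨rfl, rfl⟩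
  · simp
  · rw [one_mul]
    push_cast [h1]
    exact dvd_rfl
  · exfalso
    obtain ⟨Q, hQ⟩ : ∃ Q : Sylow p G, (Q : Subgroup G) = P := by
      have h2 : IsPGroup p P := IsPGroup.of_card hP
      obtain ⟨Q, hQ⟩ := h2.exists_le_sylow
      refine ⟨Q, (Subgroup.eq_of_le_of_card_ge hQ ?_).symm⟩
      rw [hP, Q.card_eq_multiplicity, hv]
    subst hQ
    exact false_of_cusp hTI Q hpG hK hs1 hs2 hs3 hχ h0 (by rw [hsum, hv])

/-- **Closing**: with `p^(2v) - 1 ∤ |G|`. -/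
theorem none_of_rank_one {p r v : ℕ} (hs : IsSimpleGroup G) (hp : p.Prime) (hv : (Nat.card G).factorization p = v)
    (hv0 : v ≠ 0) (hv4 : 4 < p ^ (2 * v)) (hK : Kaw p G) (h0 : ¬ p ^ (2 * v) - 1 ∣ Nat.card G)
    (hTI : H210.Loc.TI p G) (hr2 : r ≠ 2) (hord : orderOf (p : ZMod r) = 2 * v) (hIso : Iso G p r)
    (P : Subgroup G) (hP : Nat.card P = p ^ v) {s : G} (hs1 : ∀ u ∈ P, s⁻¹ * u * s ∈ P)
    (hs2 : ∀ u ∈ P, u * s = s * u → u = 1) (hs3 : ¬ IsConj s s⁻¹) {χ : G → ℂ} (hχ : IsIrrCharacter G χ) :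
    ¬ OneZero χ := by
  refine none_of_cong hs hp hv hv0 hK h0 (fun m e he hm0 hm h => ?_) hχ
  have h1 := h _ _ (cong_of_rank_one hp hv hv0 hK hTI hr2 hord hIso P hP hs1 hs2 hs3)
  rw [pow_zero] at h1
  have hp2 := hp.two_le
  have h2 : (p : ℤ) ^ m * 2 ≤ (p : ℤ) ^ (2 * v) := by
    have h3 : p ^ m * 2 ≤ p ^ (2 * v) := by
      calc p ^ m * 2 ≤ p ^ m * p := Nat.mul_le_mul_left _ hp2
        _ = p ^ (m + 1) := (pow_succ p m).symm
        _ ≤ _ := Nat.pow_le_pow_right hp.pos (by omega)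
    exact_mod_cast h3
  have h3 : (2 : ℤ) ≤ (p : ℤ) ^ m := by
    have : 2 ^ 1 ≤ p ^ m := (Nat.pow_le_pow_right (by norm_num) hm0).trans (Nat.pow_le_pow_left hp2 m)
    exact_mod_cast this
  have h4 : ((p ^ (2 * v) - 1 : ℕ) : ℤ) = (p : ℤ) ^ (2 * v) - 1 := by
    have : 1 ≤ p ^ (2 * v) := Nat.one_le_pow _ _ hp.pos
    push_cast [this]
    rfl
  rw [h4] at h1
  rcases he with rfl | rfl
  · have h5 := Int.le_of_dvd (by linarith) h1
    linarith
  · have h6 : (p : ℤ) ^ (2 * v) - 1 ∣ (p : ℤ) ^ m + 1 := by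
      rw [← dvd_neg]
      have h7 : -((p : ℤ) ^ m + 1) = -1 * (p : ℤ) ^ m - 1 := by ring
      rw [h7]
      exact h1
    have h5 := Int.le_of_dvd (by linarith) h6
    have h7 : (4 : ℤ) < (p : ℤ) ^ (2 * v) := by exact_mod_cast hv4
    linarith

end Cfsg.Agent.H279.OZ
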