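import Cfsg.Agent.H452.Singer
import Cfsg.Agent.H724.UThree
import Cfsg.Agent.H732.VZ.Close

/-!
# S4842: the isolated primes of `PSU(3,q)` (helper279)

`iso_psu3` : a prime `r ≥ 5` dividing `q² - q + 1` is isolated.
-/

set_option autoImplicit false
set_option linter.unusedSectionVars false

open Subgroup

namespace Cfsg.Agent.H279.OZ

open Cfsg Cfsg.Geo Matrix Cfsg.Agent.H907 Cfsg.Agent.H918 Cfsg.Agent.H452.Singer
open Cfsg.Agent.H732.VZ (Iso central_sylow)
open scoped MatrixGroups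

variable {F : Type*} [Field F] [Fintype F] {q : ℕ}

theorem cent_psu3 (hF : Fintype.card F = q ^ 2) {r : ℕ} [hr : Fact r.Prime] (hr5 : 5 ≤ r)
    (hd : r ∣ q ^ 2 - q + 1) {y : Cfsg.PSU 3 F q} (hy : orderOf y = r) :
    (∀ a b : Cfsg.PSU 3 F q, Commute y a → Commute y b → Commute a b) ∧
      ∀ a : Cfsg.PSU 3 F q, Commute y a → a ^ (q ^ 2 - q + 1) = 1 := by
  classical
  have ho := ord_three hF hr5 hd
  set Z := Subgroup.center (Cfsg.SU 3 F q) with hZ
  let π : Cfsg.SU 3 F q →* Cfsg.PSU 3 F q := QuotientGroup.mk' Z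
  have hπ : Function.Surjective π := QuotientGroup.mk'_surjective _
  have hker : ∀ g, π g = 1 ↔ g ∈ Z := fun g => QuotientGroup.eq_one_iff g
  have hZc : Nat.card Z = Nat.gcd 3 (q + 1) := Cfsg.Agent.S0279.result hF 3 le_rfl
  have hZ3 : ∀ z ∈ Z, z ^ 3 = 1 := by
    intro z hz
    have h2 : (⟨z, hz⟩ : Z) ^ 3 = 1 := by
      apply orderOf_dvd_iff_pow_eq_one.1
      refine (_root_.orderOf_dvd_natCard _).trans ?_
      rw [hZc]
      exact Nat.gcd_dvd_left 3 (q + 1)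
    exact congrArg Subtype.val h2
  have hr3 : Nat.Coprime 3 r := by
    rw [Nat.coprime_primes Nat.prime_three hr.out]
    omega
  -- the lift
  obtain ⟨A, hAy, hAr⟩ : ∃ A : Cfsg.SU 3 F q, π A = y ∧ A ^ r = 1 := by
    obtain ⟨A₀, hA₀⟩ := hπ y
    obtain ⟨t, -, ht⟩ := Nat.exists_mul_mod_eq_one_of_coprime hr3 hr.out.one_lt
    refine ⟨A₀ ^ (3 * t), ?_, ?_⟩
    · rw [map_pow, hA₀]
      have hyr : y ^ r = 1 := by rw [← hy, pow_orderOf_eq_one]
      rw [← Nat.div_add_mod (3 * t) r, ht, pow_add, pow_mul, hyr, one_pow, one_mul, pow_one]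
    · have h1 : A₀ ^ r ∈ Z := by
        rw [← hker, map_pow, hA₀, ← hy, pow_orderOf_eq_one]
      have h2 := hZ3 _ h1
      calc (A₀ ^ (3 * t)) ^ r = ((A₀ ^ r) ^ 3) ^ t := by
            rw [← pow_mul, ← pow_mul, ← pow_mul]; congr 1; ring
        _ = 1 := by rw [h2, one_pow]
  have hA1 : A ≠ 1 := by
    rintro rfl
    rw [map_one] at hAy
    rw [← hAy, orderOf_one] at hy
    exact hr.out.one_lt.ne hy
  have hsing : ∀ z ∈ Z, z ^ r = 1 → z = 1 := by
    intro z hz hzr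
    have h1 := orderOf_dvd_of_pow_eq_one (hZ3 z hz)
    have h2 := orderOf_dvd_of_pow_eq_one hzr
    have h3 : orderOf z ∣ 1 := by
      rw [← hr3]
      exact Nat.dvd_gcd h1 h2
    exact orderOf_eq_one_iff.1 (Nat.dvd_one.1 h3)
  -- lifting the centraliser
  have hlift : ∀ B : Cfsg.SU 3 F q, Commute y (π B) → B * A = A * B := by
    intro B hB
    have h1 : B * A * B⁻¹ * A⁻¹ ∈ Z := by
      rw [← hker, map_mul, map_mul, map_mul, map_inv, map_inv, hAy, ← hB.eq, mul_inv_cancel_right, mul_inv_cancel]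
    obtain ⟨z, hz⟩ : ∃ z, z = B * A * B⁻¹ * A⁻¹ := ⟨_, rfl⟩
    rw [← hz] at h1
    have h2 : B * A * B⁻¹ = z * A := by rw [hz, inv_mul_cancel_right]
    have h3 : (B * A * B⁻¹) ^ r = 1 := by
      have : (B * A * B⁻¹) ^ r = B * A ^ r * B⁻¹ := by
        rw [← MulAut.conj_apply, ← map_pow, MulAut.conj_apply]
      rw [this, hAr, mul_one, mul_inv_cancel]
    have h4 : Commute z A := (Subgroup.mem_center_iff.1 h1 A).symm
    rw [h2, h4.mul_pow, hAr, mul_one] at h3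
    have h6 := hsing z h1 h3
    rw [h6, one_mul] at h2
    exact mul_inv_eq_iff_eq_mul.1 h2
  -- the images in `GL`
  set x : GL (Fin 3) F := suHom 3 F q A with hx
  have hxS : x ∈ SUg 3 F q := suHom_mem A
  have hxr : x ^ r = 1 := by rw [hx, ← map_pow, hAr, map_one]
  have hx1 : x ≠ 1 := fun h => hA1 (suHom_injective (by rw [map_one]; exact h))
  have hX : (x : Matrix (Fin 3) (Fin 3) F) ^ r = 1 := by
    rw [← Units.val_pow_eq_pow_val, hxr, Units.val_one]
  have hX1 : (x : Matrix (Fin 3) (Fin 3) F) ≠ 1 := fun h => hx1 (Units.ext h)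
  have hK := adjoin_field ho hX hX1
  have hadj := adjoin_adj (r := r) hF hxS.1 hxr
  have hXK : (x : Matrix (Fin 3) (Fin 3) F) ∈ Algebra.adjoin F {(x : Matrix (Fin 3) (Fin 3) F)} :=
    Algebra.subset_adjoin (Set.mem_singleton _)
  have hmem : ∀ B : Cfsg.SU 3 F q, Commute y (π B) → suHom 3 F q B ∈ KU hK := by
    intro B hB
    have hgc : suHom 3 F q B * x = x * suHom 3 F q B := by
      rw [hx, ← map_mul, ← map_mul, hlift B hB]
    show ((suHom 3 F q B : GL (Fin 3) F) : Matrix (Fin 3) (Fin 3) F) ∈ Algebra.adjoin F {(x : Matrix (Fin 3) (Fin 3) F)}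
    refine Cfsg.Agent.H907.SU3.mem_of_comm hK hXK (not_scalar ho hX hX1) ?_
    have := congrArg (fun z : GL (Fin 3) F => (z : Matrix (Fin 3) (Fin 3) F)) hgc
    simpa using this
  have hcyc := isCyclic_KU hK
  constructor
  · intro a b ha hb
    obtain ⟨A', rfl⟩ := hπ a
    obtain ⟨B', rfl⟩ := hπ b
    have h1 : suHom 3 F q A' * suHom 3 F q B' = suHom 3 F q B' * suHom 3 F q A' := by
      have := (IsCyclic.commGroup (α := KU hK)).mul_comm ⟨_, hmem A' ha⟩ ⟨_, hmem B' hb⟩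
      exact congrArg Subtype.val this
    have h2 : A' * B' = B' * A' := suHom_injective (by rw [map_mul, map_mul, h1])
    show π A' * π B' = π B' * π A'
    rw [← map_mul, h2, map_mul]
  · intro a ha
    obtain ⟨A', rfl⟩ := hπ a
    have h1 := pow_eq_one_of_mem_SU hF hK hadj (hmem A' ha) (suHom_mem A')
    have h2 : A' ^ (q ^ 2 - q + 1) = 1 := suHom_injective (by rw [map_pow, h1, map_one])
    rw [← map_pow, h2, map_one]

/-- **The isolated primes of `PSU(3,q)`** -/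
theorem iso_psu3 (hF : Fintype.card F = q ^ 2) {r : ℕ} (hr : r.Prime) (hr5 : 5 ≤ r)
    (hd : r ∣ q ^ 2 - q + 1) {p : ℕ} (hp : p.Prime) (hpq : p ∣ q) (hdG : r ∣ Nat.card (Cfsg.PSU 3 F q)) :
    Iso (Cfsg.PSU 3 F q) p r := by
  have : Fact r.Prime := ⟨hr⟩
  have hfin : Finite (Cfsg.PSU 3 F q) := Quotient.finite _
  have hq2 : q ≤ q ^ 2 := Nat.le_self_pow (by norm_num) q
  have hcop : ∀ {l : ℕ}, l.Prime → l ∣ q → ¬ l ∣ q ^ 2 - q + 1 := by
    intro l hl hlq hld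
    have h1 : l ∣ q ^ 2 - q := Nat.dvd_sub (hlq.trans (dvd_pow_self q (by norm_num))) hlq
    exact hl.one_lt.ne' (Nat.dvd_one.1 ((Nat.dvd_add_right h1).1 hld))
  have hrp : r ≠ p := by
    rintro rfl
    exact hcop hr hpq hd
  obtain ⟨z, hz⟩ := exists_prime_orderOf_dvd_card' (G := Cfsg.PSU 3 F q) r hdG
  have hpz : IsPGroup r (zpowers z) := IsPGroup.of_card (n := 1) (by rw [Nat.card_zpowers, hz, pow_one])
  obtain ⟨R, hR⟩ := hpz.exists_le_sylow
  have hzR : z ∈ (R : Subgroup (Cfsg.PSU 3 F q)) := hR (mem_zpowers z)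
  have hcyc := Cfsg.Agent.H724.UThree.cyc_sylow hF hr5 hd R
  obtain ⟨hab, hexp⟩ := cent_psu3 hF hr5 hd hz
  have hRz : ∀ t ∈ (R : Subgroup (Cfsg.PSU 3 F q)), Commute z t := by
    intro t ht
    have := (IsCyclic.commGroup (α := (R : Subgroup (Cfsg.PSU 3 F q)))).mul_comm ⟨z, hzR⟩ ⟨t, ht⟩
    exact congrArg Subtype.val this
  obtain ⟨h1, h2⟩ := central_sylow R hcyc hz hzR (fun y hy t ht => hab t y (hRz t ht) hy)
  refine ⟨hr, hrp, z, hz, h1, fun y hy _ => h2 y hy, ?_, Or.inr ⟨r - 1, ?_, ?_⟩⟩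
  · rintro v hv ⟨k, hk⟩
    have h3 : orderOf v ∣ q ^ 2 - q + 1 := orderOf_dvd_of_pow_eq_one (hexp v hv)
    rw [hk] at h3
    rcases Nat.eq_zero_or_pos k with rfl | hk0
    · rw [pow_zero] at hk
      exact orderOf_eq_one_iff.1 hk
    · exact absurd ((dvd_pow_self p hk0.ne').trans h3) (hcop hp hpq)
  · intro h3
    have := Nat.le_of_dvd (by omega) h3
    omega
  · intro h3
    obtain ⟨g, hg⟩ := isConj_iff.1 h3
    have h4 : z ^ (r - 1) = z⁻¹ := by
      have h5 : z ^ (r - 1) * z = 1 := by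
        rw [← pow_succ, Nat.sub_add_cancel hr.one_lt.le, ← hz, pow_orderOf_eq_one]
      exact eq_inv_of_mul_eq_one_left h5
    rw [h4] at hg
    have hgN : g ∈ normalizer ((zpowers z : Subgroup (Cfsg.PSU 3 F q)) : Set (Cfsg.PSU 3 F q)) := by
      refine mem_normalizer_fintype fun a ha => ?_
      obtain ⟨k, rfl⟩ := mem_zpowers_iff.1 ha
      rw [← conj_zpow, hg]
      exact zpow_mem (inv_mem (mem_zpowers z)) k
    have h5 := (singer hF hr5 hd hz).2 g hgN
    have h6 : g * z⁻¹ * g⁻¹ = z := by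
      have : g * z⁻¹ * g⁻¹ = (g * z * g⁻¹)⁻¹ := by group
      rw [this, hg, inv_inv]
    have h7 : g ^ 3 * z * (g ^ 3)⁻¹ = z⁻¹ := by
      have : g ^ 3 * z * (g ^ 3)⁻¹ = g * (g * (g * z * g⁻¹) * g⁻¹) * g⁻¹ := by
        rw [pow_three]
        simp only [_root_.mul_inv_rev, mul_assoc]
      rw [this, hg, h6, hg]
    rw [h5, mul_inv_cancel_right] at h7
    have h8 : z ^ 2 = 1 := by rw [sq]; nth_rewrite 2 [h7]; exact mul_inv_cancel z
    have h9 := Nat.le_of_dvd (by norm_num) (orderOf_dvd_of_pow_eq_one h8)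
    omega

end Cfsg.Agent.H279.OZ
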