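import Cfsg.Agent.H664.R1.U3Deg

/-!
# S4842: a regular element of the split torus of `PSU(3,q)` (helper279)

`exists_reg` : an element of the torus of `S σ` without fixed points on the unipotent radical and not conjugate to its
inverse.
-/

set_option autoImplicit false
set_option linter.unusedSectionVars false
set_option linter.unusedSimpArgs false

namespace Cfsg.Agent.H279.OZ

open Matrix Cfsg Cfsg.Agent.LieRecognition.PSUThreeSylow Cfsg.Agent.LieClassical.HermBasic
open Cfsg.Agent.H664.R1 Cfsg.Agent.H664.R1.U3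

variable {F : Type*} [Field F] [Fintype F] {q : ℕ} {σ : F →+* F} [hσ : Fact (∀ x, σ (σ x) = x)]

theorem exists_gen (hF : Fintype.card F = q ^ 2) : ∃ t : F, t ≠ 0 ∧ ∀ k : ℕ, t ^ k = 1 → (q + 1) * (q - 1) ∣ k := by
  obtain ⟨g, hg⟩ := IsCyclic.exists_generator (α := Fˣ)
  have ho : orderOf g = (q + 1) * (q - 1) := by
    rw [orderOf_eq_card_of_forall_mem_zpowers hg, card_units_eq hF]
  refine ⟨g, g.ne_zero, fun k hk => ?_⟩
  rw [← ho]
  apply orderOf_dvd_of_pow_eq_one
  apply Units.ext
  rw [Units.val_pow_eq_pow_val, hk, Units.val_one]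

theorem exists_reg (hF : Fintype.card F = q ^ 2) (hq : 3 ≤ q) (hs : ∀ x, σ x = x ^ q) :
    ∃ s : S σ, (∀ u ∈ (spS σ).U, s⁻¹ * u * s ∈ (spS σ).U) ∧ (∀ u ∈ (spS σ).U, u * s = s * u → u = 1) ∧
      ¬ IsConj s s⁻¹ := by
  obtain ⟨t, ht, hord⟩ := exists_gen (F := F) hF
  have h0 : σ t ≠ 0 := (map_ne_zero σ).2 ht
  have hrel := dgS_rel (σ := σ) ht
  have hmem : pr σ (dg t (σ t / t) ht hrel) ∈ S σ := ⟨_, dgS_mem t ht hrel, rfl⟩
  have hT : (⟨_, hmem⟩ : S σ) ∈ (spS σ).T := ⟨_, dg_mem _ _ _ _, rfl⟩
  have hN : 4 ≤ q + 1 := by omega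
  have hN1 : 2 ≤ q - 1 := by omega
  have hN8 : 8 ≤ (q + 1) * (q - 1) := by nlinarith
  refine ⟨⟨_, hmem⟩, fun u hu => (spS σ).nU' ((spS σ).TB hT) hu, ?_, ?_⟩
  · rintro ⟨u, huS⟩ hu hcomm
    have hu' : u ∈ (Un σ).map (pr σ) := hu
    obtain ⟨u, hu2, rfl⟩ := hu'
    obtain ⟨a, b, h, rfl⟩ := exists_un hu2
    have h1 : pr σ (un a b h) * pr σ (dg t (σ t / t) ht hrel) = pr σ (dg t (σ t / t) ht hrel) * pr σ (un a b h) :=
      congrArg Subtype.val hcomm
    have h2 : pr σ (dg t (σ t / t) ht hrel * un a b h * (dg t (σ t / t) ht hrel)⁻¹) = pr σ (un a b h) := by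
      rw [map_mul, map_mul, map_inv, ← h1, mul_inv_cancel_right]
    rw [dg_conj_un t (σ t / t) ht hrel a b h (conj_rel hrel h)] at h2
    have h3 : un a b h = un (t * σ (σ t / t) * a) (t * σ t * b) (conj_rel hrel h) := by
      have h4 := (QuotientGroup.eq).1 h2
      have h5 := Un_disj ((Un σ).mul_mem ((Un σ).inv_mem (un_mem _ _ _)) (un_mem _ _ _)) h4
      exact (inv_mul_eq_one.1 h5).symm
    have h4 := congrArg (mat σ) h3
    rw [mat_un, mat_un] at h4
    have ha : a = t * σ (σ t / t) * a := by simpa using congrFun (congrFun h4 0) 1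
    have hb : b = t * σ t * b := by simpa using congrFun (congrFun h4 0) 2
    have ha0 : a = 0 := by
      by_contra hne
      have h5 : t * σ (σ t / t) = 1 := by
        have := mul_right_cancel₀ hne (show (1 : F) * a = t * σ (σ t / t) * a by rw [one_mul]; exact ha)
        exact this.symm
      rw [map_div₀, hσ.out] at h5
      have h6 : t * t = σ t := by
        field_simp at h5
        linear_combination h5
      rw [hs] at h6
      have h7 : t ^ (q - 2) = 1 := by
        have h8 : t ^ (q - 2) * (t * t) = 1 * (t * t) := by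
          rw [one_mul]
          conv_rhs => rw [h6]
          rw [← sq, ← pow_add]
          congr 1
          omega
        exact mul_right_cancel₀ (mul_ne_zero ht ht) h8
      have h8 := Nat.le_of_dvd (by omega) (hord _ h7)
      have h9 : q + 1 ≤ (q + 1) * (q - 1) := Nat.le_mul_of_pos_right _ (by omega)
      omega
    have hb0 : b = 0 := by
      by_contra hne
      have h5 : t * σ t = 1 := by
        have := mul_right_cancel₀ hne (show (1 : F) * b = t * σ t * b by rw [one_mul]; exact hb)
        exact this.symm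
      rw [hs, ← pow_succ'] at h5
      have h8 := Nat.le_of_dvd (by omega) (hord _ h5)
      nlinarith
    subst ha0
    subst hb0
    apply Subtype.ext
    show pr σ (un 0 0 h) = 1
    have : un 0 0 h = (1 : GUJ σ) := by
      apply mat_inj
      rw [mat_un, mat_one]
      ext i j
      fin_cases i <;> fin_cases j <;> simp
    rw [this, map_one]
  · intro hconj
    obtain ⟨⟨g, hgS⟩, hg⟩ := isConj_iff.1 hconj
    have h1 : g * pr σ (dg t (σ t / t) ht hrel) * g⁻¹ = (pr σ (dg t (σ t / t) ht hrel))⁻¹ := congrArg Subtype.val hg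
    obtain ⟨g, rfl⟩ := QuotientGroup.mk'_surjective (Sc σ) g
    set d := dg t (σ t / t) ht hrel with hd
    have h2 : pr σ g = pr σ (d * g * d) := by
      rw [map_mul, map_mul]
      have h3 : pr σ g * pr σ d = (pr σ d)⁻¹ * pr σ g := mul_inv_eq_iff_eq_mul.1 h1
      rw [mul_assoc, h3, mul_inv_cancel_left]
    have h3 : g⁻¹ * (d * g * d) ∈ Sc σ := (QuotientGroup.eq).1 h2
    obtain ⟨c, hc⟩ : ∃ c, c = g⁻¹ * (d * g * d) := ⟨_, rfl⟩
    rw [← hc] at h3
    have h4 : g * c = d * g * d := by rw [hc, mul_inv_cancel_left]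
    obtain ⟨h3T, h31, h32⟩ := h3
    obtain ⟨κ, κ', hκ, hκ', rfl⟩ := exists_dg h3T
    rw [mat_dg] at h31 h32
    have e1 : κ = κ' := by simpa using h31
    have e2 : κ' = (σ κ)⁻¹ := by simpa using h32
    have h5 := congrArg (mat σ) h4
    rw [mat_mul, mat_mul, mat_mul, hd, mat_dg, mat_dg, ← e2, ← e1] at h5
    set G := mat σ g with hG
    have hκ3 : κ ^ 3 = 1 := by
      have h6 := congrArg Matrix.det h5
      rw [Matrix.det_mul, Matrix.det_mul, Matrix.det_mul] at h6
      have hdet : G.det ≠ 0 := by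
        have := det_norm (mat_spec g)
        exact left_ne_zero_of_mul_eq_one this
      have e3 : (!![t, 0, 0; 0, σ t / t, 0; 0, 0, (σ t)⁻¹] : Matrix (Fin 3) (Fin 3) F).det = 1 := by
        rw [Matrix.det_fin_three]
        simp
        field_simp
      have e4 : (!![κ, 0, 0; 0, κ, 0; 0, 0, κ] : Matrix (Fin 3) (Fin 3) F).det = κ ^ 3 := by
        rw [Matrix.det_fin_three]
        simp
        ring
      rw [e3, e4, one_mul, mul_one] at h6
      exact mul_left_cancel₀ hdet (by rw [h6, mul_one])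
    -- a nonzero entry in the first column
    have hcol : ∃ i, G i 0 ≠ 0 := by
      by_contra hcon
      push Not at hcon
      have hdet : G.det ≠ 0 := by
        have := det_norm (mat_spec g)
        exact left_ne_zero_of_mul_eq_one this
      exact hdet (Matrix.det_eq_zero_of_column_eq_zero 0 hcon)
    obtain ⟨i, hi⟩ := hcol
    have d1 : (!![t, 0, 0; 0, σ t / t, 0; 0, 0, (σ t)⁻¹] : Matrix (Fin 3) (Fin 3) F) =
        Matrix.diagonal ![t, σ t / t, (σ t)⁻¹] := by
      ext i j
      fin_cases i <;> fin_cases j <;> simp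
    have d2 : (!![κ, 0, 0; 0, κ, 0; 0, 0, κ] : Matrix (Fin 3) (Fin 3) F) = Matrix.diagonal fun _ => κ := by
      ext i j
      fin_cases i <;> fin_cases j <;> simp
    rw [d1, d2] at h5
    have h7 := congrFun (congrFun h5 i) 0
    rw [Matrix.mul_diagonal, Matrix.mul_diagonal, Matrix.diagonal_mul] at h7
    have hkey : ∃ m : F, t * m = κ ∧ (m = t ∨ m = σ t / t ∨ m = (σ t)⁻¹) := by
      refine ⟨![t, σ t / t, (σ t)⁻¹] i, ?_, ?_⟩
      · apply mul_right_cancel₀ hi
        have e0 : (![t, σ t / t, (σ t)⁻¹] : Fin 3 → F) 0 = t := rfl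
        rw [e0] at h7
        linear_combination -h7
      · have : i = 0 ∨ i = 1 ∨ i = 2 := by omega
        rcases this with rfl | rfl | rfl
        · exact Or.inl rfl
        · exact Or.inr (Or.inl rfl)
        · exact Or.inr (Or.inr rfl)
    obtain ⟨m, hm, hm'⟩ := hkey
    rcases hm' with rfl | rfl | rfl
    · have h8 : m ^ 6 = 1 := by
        rw [← hκ3, ← hm]; ring
      have h9 := Nat.le_of_dvd (by norm_num) (hord _ h8)
      omega
    · have h8 : σ (t ^ 3) = 1 := by
        rw [map_pow]
        have : t * (σ t / t) = σ t := by field_simp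
        rw [← this, hm, hκ3]
      have h9 : t ^ 3 = 1 := by
        apply σ.injective
        rw [h8, map_one]
      have h10 := Nat.le_of_dvd (by norm_num) (hord _ h9)
      omega
    · have h8 : t ^ 3 = σ t ^ 3 := by
        have : t = κ * σ t := by rw [← hm]; field_simp
        conv_lhs => rw [this]
        rw [mul_pow, hκ3, one_mul]
      rw [hs, ← pow_mul] at h8
      have h9 : t ^ (3 * (q - 1)) = 1 := by
        have h10 : t ^ (3 * (q - 1)) * t ^ 3 = 1 * t ^ 3 := by
          rw [one_mul]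
          conv_rhs => rw [h8]
          rw [← pow_add]
          congr 1
          omega
        exact mul_right_cancel₀ (pow_ne_zero 3 ht) h10
      have h10 : q + 1 ∣ 3 := Nat.dvd_of_mul_dvd_mul_right (by omega) (hord _ h9)
      have := Nat.le_of_dvd (by norm_num) h10
      omega

end Cfsg.Agent.H279.OZ
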